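import Cfsg.Agent.H99.ExclSL

/-! Two sporadic inclusions: frames in `SL₄(5)` and the Singer normaliser in `SL₃(4)`; the
identification of the natural module with a field subalgebra of full degree. -/

set_option autoImplicit false

namespace Cfsg.Agent.H99

open Cfsg Cfsg.Geo Cfsg.Agent.H98 Matrix
open scoped MatrixGroups commutatorElement Kronecker

variable {ι : Type} [Fintype ι] [DecidableEq ι] {F : Type*} [Field F]

/-! ### Frames in `SL₄(5)` -/

/-- The vectors of the sixty points of Klein's configuration. -/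
def klein60 {R : Type*} [CommRing R] (v : Fin 4 → R) : Prop :=
  ((∀ i, v i ≠ 0) → (∏ i, v i) ^ 2 = 1) ∧ ∀ i, v i = 0 → ∃ j, j ≠ i ∧ v j = 0

/-- A non-monomial matrix preserving `klein60`. -/
def had4 (R : Type*) [CommRing R] : Matrix (Fin 4) (Fin 4) R :=
  !![1, 1, 0, 0; 1, -1, 0, 0; 0, 0, 1, 1; 0, 0, -1, 1]

instance instDecKlein60 (v : Fin 4 → ZMod 5) : Decidable (klein60 v) := by
  unfold klein60; infer_instance

theorem klein60_had4_zmod : ∀ a b c d : ZMod 5, klein60 ![a, b, c, d] →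
    klein60 ![a + b, a - b, c + d, d - c] := by
  decide +kernel

theorem klein60_map {R S : Type*} [CommRing R] [CommRing S] (φ : R ≃+* S) (v : Fin 4 → R) :
    klein60 (fun i => φ (v i)) ↔ klein60 v := by
  unfold klein60
  simp only [ne_eq, map_eq_zero_iff φ φ.injective]
  rw [← map_prod, ← map_pow, ← map_one φ, φ.injective.eq_iff]

theorem klein60_had4 [Fintype F] (hq : Fintype.card F = 5) (v : Fin 4 → F) (hv : klein60 v) :
    klein60 (had4 F *ᵥ v) := by
  let φ := ZMod.ringEquivOfPrime F (by norm_num : Nat.Prime 5) hq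
  have h1 : v = fun i => φ (![φ.symm (v 0), φ.symm (v 1), φ.symm (v 2), φ.symm (v 3)] i) := by
    ext i; fin_cases i <;> simp
  have h2 : had4 F *ᵥ v = fun i => φ (![φ.symm (v 0) + φ.symm (v 1), φ.symm (v 0) - φ.symm (v 1),
      φ.symm (v 2) + φ.symm (v 3), φ.symm (v 3) - φ.symm (v 2)] i) := by
    ext i
    fin_cases i <;> simp [had4, Matrix.mulVec, dotProduct, Fin.sum_univ_four] <;> ring
  rw [h2, klein60_map]
  rw [h1, klein60_map] at hv
  exact klein60_had4_zmod _ _ _ _ hv

theorem det_had4 [Fintype F] (hq : Fintype.card F = 5) : (had4 F).det = 1 := by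
  have h5 : (5 : F) = 0 := by
    have := FiniteField.cast_card_eq_zero F
    rwa [hq] at this
  have : (had4 F).det = -4 := by
    simp [had4, Matrix.det_succ_row_zero, Fin.sum_univ_succ, Fin.succAbove]
    ring
  rw [this]; linear_combination -h5

theorem frame_five_not_maximal [Fintype F] (hq : Fintype.card F = 5)
    {D : Fin 4 → Submodule F (ι → F)} (hD : IsMDecomposition 1 D) :
    ¬ IsMaximalIn (specialLinear ι F) (decompositionStabilizer D ⊓ specialLinear ι F) := by
  obtain ⟨e, P, h⟩ := exists_adapted_one hD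
  let g0 : GL (Fin 4) F := Matrix.GeneralLinearGroup.mkOfDetNeZero (had4 F)
    (by rw [det_had4 hq]; exact one_ne_zero)
  refine not_isMaximalIn_of
    (M := (setStab {v : Fin 4 → F | klein60 v}).comap (frmG e P).symm.toMonoidHom) ?_ ?_
    (g := frmG e P g0) ?_ ?_ ?_
  · rintro g ⟨hg, hs⟩
    obtain ⟨σ, hσ⟩ := h.blockMono hg
    have hd := mem_sl.1 ((frmG_symm_mem_sl e P).2 hs)
    have hne := hσ.mono_ne_zero (Matrix.GeneralLinearGroup.det_ne_zero _)
    apply mem_setStab_of_finite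
    rintro v ⟨hv1, hv2⟩
    change klein60 ((((frmG e P).symm g : GL (Fin 4) F) : Matrix (Fin 4) (Fin 4) F) *ᵥ v)
    constructor
    · intro h0
      rw [← Equiv.prod_comp σ]
      simp only [hσ.mono_mulVec]
      rw [Finset.prod_mul_distrib, ← hσ.mono_det, hd, mul_one, mul_pow, sign_cast_sq, one_mul]
      apply hv1
      intro i hi
      apply h0 (σ i)
      rw [hσ.mono_mulVec, hi, mul_zero]
    · intro i hi
      obtain ⟨l, rfl⟩ := σ.surjective i
      rw [hσ.mono_mulVec] at hi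
      obtain ⟨j, hj, hj0⟩ := hv2 l ((mul_eq_zero.1 hi).resolve_left (hne l))
      exact ⟨σ j, fun hc => hj (σ.injective hc), by rw [hσ.mono_mulVec, hj0, mul_zero]⟩
  · intro hS
    have h01 : (0 : Fin 4) ≠ 1 := by decide
    have h1 := hS ((frmG_mem_sl e P).2 (et_mem_sl h01 (1 : F)))
    change (frmG e P).symm (frmG e P _) ∈ setStab _ at h1
    rw [MulEquiv.symm_apply_apply] at h1
    have h2 := (h1 ![0, 1, 1, 0]).1 ⟨fun h0 => absurd rfl (h0 0), fun i hi => by
      fin_cases i
      · exact ⟨3, by decide, rfl⟩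
      · simp at hi
      · simp at hi
      · exact ⟨0, by decide, rfl⟩⟩
    change klein60 ((et h01 (1 : F) : GL (Fin 4) F).val *ᵥ _) at h2
    rw [et_mulVec] at h2
    obtain ⟨j, hj, hj0⟩ := h2.2 3 (by simp)
    fin_cases j <;> simp at hj hj0
  · change (frmG e P).symm (frmG e P _) ∈ setStab _
    rw [MulEquiv.symm_apply_apply]
    exact mem_setStab_of_finite fun v hv => klein60_had4 hq v hv
  · rw [frmG_mem_sl, mem_sl]; exact det_had4 hq
  · rintro ⟨hg, -⟩
    refine h.not_mem_decStab (k := 0) (k' := 1) (l := 0) (by decide) ?_ ?_ hg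
    · change had4 F 0 0 ≠ 0
      simp [had4]
    · change had4 F 1 0 ≠ 0
      simp [had4]

/-! ### Field subalgebras of full degree -/

/-- The map `k ↦ k v`. -/
def actV (K : Subalgebra F (Matrix ι ι F)) (v : ι → F) : K →ₗ[F] (ι → F) where
  toFun k := (k : Matrix ι ι F) *ᵥ v
  map_add' a b := by simp [Matrix.add_mulVec]
  map_smul' c a := by simp [Matrix.smul_mulVec]

theorem actV_apply (K : Subalgebra F (Matrix ι ι F)) (v : ι → F) (k : K) :
    actV K v k = (k : Matrix ι ι F) *ᵥ v := rfl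

theorem actV_injective {r : ℕ} {K : Subalgebra F (Matrix ι ι F)} (hK : IsFieldSubalgebra r K)
    {v : ι → F} (hv : v ≠ 0) : Function.Injective (actV K v) := by
  rw [← LinearMap.ker_eq_bot, LinearMap.ker_eq_bot']
  intro k hk
  exact Subtype.ext (field_elt_eq_zero hK k.2 hv hk)

theorem actV_bijective {K : Subalgebra F (Matrix ι ι F)} (hK : IsFieldSubalgebra (Fintype.card ι) K)
    {v : ι → F} (hv : v ≠ 0) : Function.Bijective (actV K v) := by
  refine ⟨actV_injective hK hv, ?_⟩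
  rw [← LinearMap.injective_iff_surjective_of_finrank_eq_finrank (by rw [hK.finrank_eq]; simp)]
  exact actV_injective hK hv

/-- The determinant of an element of a field subalgebra of full degree is its norm. -/
theorem det_eq_norm {K : Subalgebra F (Matrix ι ι F)} (hK : IsFieldSubalgebra (Fintype.card ι) K)
    {v : ι → F} (hv : v ≠ 0) (a : K) :
    (a : Matrix ι ι F).det = LinearMap.det (LinearMap.mulLeft F a) := by
  let ε := LinearEquiv.ofBijective (actV K v) (actV_bijective hK hv)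
  rw [← LinearMap.det_toLin', ← LinearMap.det_conj (LinearMap.mulLeft F a) ε]
  congr 1
  apply LinearMap.ext
  intro x
  obtain ⟨k, rfl⟩ := ε.surjective x
  simp only [LinearMap.comp_apply, LinearEquiv.coe_coe, LinearEquiv.symm_apply_apply]
  simp [ε, actV_apply]

theorem det_smul_one_eq_pow [Fintype F] [Nonempty ι] {K : Subalgebra F (Matrix ι ι F)}
    (hK : IsFieldSubalgebra (Fintype.card ι) K) {a : Matrix ι ι F} (ha : a ∈ K) :
    a.det • (1 : Matrix ι ι F) =
      a ^ ((Fintype.card F ^ Fintype.card ι - 1) / (Fintype.card F - 1)) := by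
  letI : Field K := (isField_of_isFld hK.comm hK.inv).toField
  have h1 := FiniteField.algebraMap_norm_eq_pow (K := F) (K' := K) (x := ⟨a, ha⟩)
  have hc : Nat.card K = Fintype.card F ^ Fintype.card ι := by
    rw [Module.natCard_eq_pow_finrank (K := F), hK.finrank_eq, Nat.card_eq_fintype_card]
  rw [hc, Nat.card_eq_fintype_card] at h1
  have h2 := congrArg Subtype.val h1
  have hv : (Pi.single (Classical.arbitrary ι) 1 : ι → F) ≠ 0 := by simp
  have h3 := det_eq_norm hK hv ⟨a, ha⟩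
  rw [SubmonoidClass.coe_pow] at h2
  rw [← h2, Subalgebra.coe_algebraMap, Algebra.algebraMap_eq_smul_one]
  congr 1

theorem exists_scalar_of_pow_card [Fintype F] [Nonempty ι] {r : ℕ} {K : Subalgebra F (Matrix ι ι F)}
    (hK : IsFieldSubalgebra r K) {a : Matrix ι ι F} (ha : a ∈ K) (h : a ^ Fintype.card F = a) :
    ∃ c : F, a = c • (1 : Matrix ι ι F) := by
  have hr : 1 ∣ Module.finrank F K := one_dvd _
  obtain ⟨K1, hK1, hx⟩ := exists_subfield_alg hK.comm hK.inv hr
  have h1 : a ∈ K1 := (hx a).2 ⟨ha, by rwa [pow_one, Nat.card_eq_fintype_card]⟩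
  rw [Subalgebra.finrank_eq_one_iff.1 hK1.finrank_eq, Algebra.mem_bot] at h1
  obtain ⟨c, hc⟩ := h1
  exact ⟨c, by rw [← hc, Algebra.algebraMap_eq_smul_one]⟩

theorem exists_gl_of_basis (B : Module.Basis ι F (ι → F)) :
    ∃ P : GL ι F, ∀ (X : Matrix ι ι F) i j,
      (((P⁻¹ : GL ι F) : Matrix ι ι F) * X * P) i j = B.repr (X *ᵥ B j) i := by
  obtain ⟨P, hP⟩ := exists_frame_of_basis (Equiv.refl ι) B
  have h1 : ∀ v k, (((P⁻¹ : GL ι F) : Matrix ι ι F) *ᵥ v) k = B.repr v k := hP
  have h2 : ∀ j, (P : Matrix ι ι F) *ᵥ Pi.single j 1 = B j := by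
    intro j
    have : ((P⁻¹ : GL ι F) : Matrix ι ι F) *ᵥ B j = Pi.single j 1 := by
      ext k; rw [h1]; simp [Finsupp.single_apply, Pi.single_apply, eq_comm]
    rw [← this, mulVec_inv_mulVec]
  refine ⟨P, fun X i j => ?_⟩
  rw [← h2, ← h1, Matrix.mulVec_mulVec, Matrix.mulVec_mulVec, Matrix.mulVec_single_one]
  rfl

/-- The prime field in characteristic two. -/
def fldTwo (h2 : (2 : F) = 0) : Subfield F where
  carrier := {0, 1}
  mul_mem' := by rintro _ _ (rfl | rfl) (rfl | rfl) <;> simp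
  one_mem' := by simp
  add_mem' := by
    rintro _ _ (rfl | rfl) (rfl | rfl)
    · simp
    · simp
    · simp
    · left; linear_combination h2
  zero_mem' := by simp
  neg_mem' := by
    rintro _ (rfl | rfl)
    · simp
    · right
      change (-1 : F) = 1
      linear_combination -h2
  inv_mem' := by rintro _ (rfl | rfl) <;> simp

theorem mem_fldTwo (h2 : (2 : F) = 0) {x : F} : x ∈ fldTwo h2 ↔ x = 0 ∨ x = 1 := Iff.rfl

theorem card_fldTwo (h2 : (2 : F) = 0) : Nat.card (fldTwo h2) = 2 := by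
  have := Nat.card_coe_set_eq ({0, 1} : Set F)
  rw [Set.ncard_pair zero_ne_one] at this
  exact this

theorem det_mem_subfield (F₀ : Subfield F) {X : Matrix ι ι F} (h : ∀ i j, X i j ∈ F₀) :
    X.det ∈ F₀ := by
  rw [Matrix.det_apply']
  refine F₀.sum_mem fun σ _ => F₀.mul_mem (intCast_mem F₀ _) (F₀.prod_mem fun i _ => h _ _)

theorem singer_three_four [Fintype F] (hq : Fintype.card F = 4)
    {K : Subalgebra F (Matrix (Fin 3) (Fin 3) F)} (hK : IsFieldSubalgebra 3 K) :
    ∃ (F₀ : Subfield F) (P : GL (Fin 3) F), Fintype.card F = Nat.card F₀ ^ 2 ∧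
      subalgebraNormalizer K ⊓ specialLinear (Fin 3) F ≤ subfieldSubgroup F₀ P := by
  have h2 : (2 : F) = 0 := two_eq_zero_of_even (by rw [hq])
  have hK' : IsFieldSubalgebra (Fintype.card (Fin 3)) K := by simpa using hK
  letI : Field K := (isField_of_isFld hK.comm hK.inv).toField
  haveI : CharP F 2 := by
    have h3 : ringChar F = 2 := FiniteField.even_card_iff_char_two.2 (by rw [hq])
    rw [← h3]; infer_instance
  haveI : CharP K 2 := charP_of_injective_algebraMap (algebraMap F K).injective 2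
  haveI : Fact (Nat.Prime 2) := ⟨Nat.prime_two⟩
  have hF4 : ∀ c : F, c ^ 4 = c := fun c => by
    have := FiniteField.pow_card c
    rwa [hq] at this
  have hc : Nat.card Kˣ = 63 := by
    rw [Nat.card_units, Module.natCard_eq_pow_finrank (K := F), hK.finrank_eq,
      Nat.card_eq_fintype_card, hq]
    norm_num
  haveI : Fact (Nat.Prime 7) := ⟨by norm_num⟩
  obtain ⟨t, ht⟩ := exists_prime_orderOf_dvd_card' (G := Kˣ) 7 (by rw [hc]; norm_num)
  obtain ⟨θ, hθ⟩ : ∃ θ : K, θ = t.val := ⟨_, rfl⟩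
  have hθ7 : θ ^ 7 = 1 := by
    rw [hθ, ← Units.val_pow_eq_pow_val, ← ht, pow_orderOf_eq_one, Units.val_one]
  have hθ8 : θ ^ 8 = θ := by rw [pow_succ, hθ7, one_mul]
  have hdeg : (minpoly F θ).natDegree = 3 := by
    have h1 := minpoly.degree_dvd (Algebra.IsIntegral.isIntegral (R := F) θ)
    rw [hK.finrank_eq] at h1
    refine ((Nat.dvd_prime Nat.prime_three).1 h1).resolve_left fun h => ?_
    obtain ⟨c, hc⟩ := minpoly.natDegree_eq_one_iff.1 h
    have h4 : θ ^ 4 = θ := by rw [← hc, ← map_pow, hF4]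
    have h5 : t ^ 3 = 1 := by
      apply Units.ext
      rw [Units.val_pow_eq_pow_val, Units.val_one]
      apply mul_right_cancel₀ t.ne_zero
      rw [← pow_succ, one_mul, ← hθ]; exact h4
    have := orderOf_dvd_of_pow_eq_one h5
    rw [ht] at this
    norm_num at this
  have hli : LinearIndependent F fun i : Fin 3 => θ ^ (i : ℕ) := by
    have := linearIndependent_pow (K := F) θ
    rwa [hdeg] at this
  let b : Module.Basis (Fin 3) F K :=
    basisOfLinearIndependentOfCardEqFinrank hli (by rw [hK.finrank_eq]; simp)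
  have hb : ∀ i, b i = θ ^ (i : ℕ) := fun i => by simp [b]
  have hrat : ∀ x : K, x ^ 8 = x → ∀ i, b.repr x i ∈ fldTwo h2 := by
    intro x hx i
    have h1 := b.sum_repr x
    have h3 : ∑ i, (b.repr x i) ^ 8 • b i = x := by
      conv_rhs => rw [← hx, ← h1, show 8 = 2 ^ 3 from rfl, sum_pow_char_pow]
      refine Finset.sum_congr rfl fun i _ => ?_
      rw [smul_pow, hb, ← pow_mul, mul_comm, pow_mul, show 2 ^ 3 = 8 from rfl, hθ8]
    have h4 : b.repr x i = (b.repr x i) ^ 8 := by
      conv_lhs => rw [← h3]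
      simp [Finsupp.single_apply]
    rw [show 8 = 4 * 2 from rfl, pow_mul, hF4] at h4
    by_cases h0 : b.repr x i = 0
    · exact Or.inl h0
    · right
      change b.repr x i = 1
      apply mul_left_cancel₀ h0
      rw [mul_one, ← pow_two, ← h4]
  let v : Fin 3 → F := Pi.single 0 1
  have hv : v ≠ 0 := by simp [v]
  let ε := LinearEquiv.ofBijective (actV K v) (actV_bijective hK' hv)
  have hε : ∀ k : K, ε k = (k : Matrix (Fin 3) (Fin 3) F) *ᵥ v := fun _ => rfl
  obtain ⟨P, hP⟩ := exists_gl_of_basis (b.map ε)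
  have key : ∀ (X : Matrix (Fin 3) (Fin 3) F), (∀ j, ∃ y : K, y ^ 8 = y ∧ X *ᵥ ε (b j) = ε y) →
      ∀ i j, (((P⁻¹ : GL (Fin 3) F) : Matrix (Fin 3) (Fin 3) F) * X * P) i j ∈ fldTwo h2 := by
    intro X hX i j
    obtain ⟨y, hy, hXy⟩ := hX j
    rw [hP, Module.Basis.map_apply, hXy, Module.Basis.map_repr]
    simpa using hrat y hy i
  refine ⟨fldTwo h2, P, by rw [card_fldTwo, hq]; norm_num, ?_⟩
  rintro g ⟨hg, hs⟩
  let α : K → K := fun k => ⟨cj g k, (hg k).1 k.2⟩
  have hα : ∀ j, α (b j) ^ 8 = α (b j) := by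
    intro j
    apply Subtype.ext
    change cj g (b j : K) ^ 8 = cj g (b j : K)
    rw [← map_pow, ← SubmonoidClass.coe_pow, hb, ← pow_mul, mul_comm, pow_mul, hθ8]
  obtain ⟨a, ha⟩ := ε.surjective ((g : Matrix (Fin 3) (Fin 3) F) *ᵥ v)
  have hga : ∀ k : K, (g : Matrix (Fin 3) (Fin 3) F) *ᵥ ε k = ε (a * α k) := by
    intro k
    rw [hε, ← cj_mulVec, ← ha, hε, hε, mul_comm a, Matrix.mulVec_mulVec]
    rfl
  have ha0 : a ≠ 0 := by
    rintro rfl
    rw [map_zero, eq_comm, gl_mulVec_eq_zero] at ha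
    exact hv ha
  have hεm : ∀ k l : K, (k : Matrix (Fin 3) (Fin 3) F) *ᵥ ε l = ε (k * l) := by
    intro k l
    rw [hε, hε, Matrix.mulVec_mulVec]; rfl
  have h1 := det_mem_subfield _ (key (((a⁻¹ : K) : Matrix (Fin 3) (Fin 3) F) * g) (fun j =>
    ⟨α (b j), hα j, by rw [← Matrix.mulVec_mulVec, hga, hεm, inv_mul_cancel_left₀ ha0]⟩))
  rw [Matrix.det_mul, Matrix.det_mul, Matrix.det_mul, mem_sl.1 hs, mul_one, mul_right_comm,
    ← Matrix.det_mul, ← Units.val_mul, inv_mul_cancel, Units.val_one, Matrix.det_one, one_mul] at h1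
  have h3 : (a : Matrix (Fin 3) (Fin 3) F).det * ((a⁻¹ : K) : Matrix (Fin 3) (Fin 3) F).det = 1 := by
    rw [← Matrix.det_mul, ← Subalgebra.coe_mul, mul_inv_cancel₀ ha0, Subalgebra.coe_one,
      Matrix.det_one]
  have h4 : (a : Matrix (Fin 3) (Fin 3) F).det = 1 := by
    rcases h1 with h | h
    · rw [h, mul_zero] at h3; exact absurd h3 zero_ne_one
    · rw [h, mul_one] at h3; exact h3
  have h5 := det_smul_one_eq_pow hK' a.2
  rw [h4, hq, one_smul] at h5
  have h21 : a ^ 21 = 1 := Subtype.ext (by rw [SubmonoidClass.coe_pow]; exact h5.symm)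
  obtain ⟨μ, hμ⟩ := exists_scalar_of_pow_card hK (a ^ 7).2 (by
    rw [hq, ← SubmonoidClass.coe_pow, ← pow_mul, show 7 * 4 = 21 + 7 from rfl, pow_add, h21, one_mul])
  have hμ' : a ^ 7 = μ • (1 : K) := Subtype.ext hμ
  have hμ0 : μ ≠ 0 := by
    rintro rfl
    rw [zero_smul] at hμ'
    exact pow_ne_zero 7 ha0 hμ'
  have haμ : a = μ • a ^ 15 := by
    rw [← one_mul (a ^ 15), ← smul_mul_assoc, ← hμ', ← pow_add, show 7 + 15 = 21 + 1 from rfl,
      pow_succ, h21, one_mul]
  have h15 : (a ^ 15) ^ 8 = a ^ 15 := by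
    rw [← pow_mul, show 15 * 8 = 21 * 5 + 15 from rfl, pow_add, pow_mul, h21, one_pow, one_mul]
  rw [mem_subfieldSubgroup]
  refine ⟨μ⁻¹, inv_ne_zero hμ0, fun i j => ?_⟩
  have := key (μ⁻¹ • (g : Matrix (Fin 3) (Fin 3) F)) (fun j => ⟨a ^ 15 * α (b j),
    by rw [mul_pow, h15, hα], by
      rw [Matrix.smul_mulVec, hga]
      conv_lhs => rw [haμ]
      rw [smul_mul_assoc, map_smul, smul_smul, inv_mul_cancel₀ hμ0, one_smul]⟩) i j
  simpa using this

end Cfsg.Agent.H99
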